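import Cfsg.Agent.H76.GLB.ProdBlk
import Cfsg.Agent.H751.FixDim
import Cfsg.Agent.H583.SecRank

/-!
# S4536 E2, group-theoretic part

* `exists_defect_prod'` : the defect groups of a product of two blocks contain the product of the defect groups;
* `four_le_of_noncyclic` : the direct product of two noncyclic 2-groups has sectional rank at least 4.
-/

set_option autoImplicit false
set_option linter.unusedSectionVars false

open Cfsg

namespace Cfsg.Agent.H501.GLn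

open Cfsg.Agent.H644 Cfsg.Agent.Blocks.Local Cfsg.Agent.H648.Dict Cfsg.Agent.H624.Sl Cfsg.Agent.H466.Sl
open Cfsg.Agent.Characters.Core Cfsg.Agent.H76.GLB

section prod

variable {X₁ X₂ G : Type*} [Group X₁] [Finite X₁] [Group X₂] [Finite X₂] [Group G] [Finite G]
  {H : Subgroup G} {p : ℕ} [Fact p.Prime] {𝔐 : Ideal AlgInt} {j : X₁ × X₂ →* G}

theorem exists_defect_prod' (hM : IsPModular p 𝔐) (hj : Function.Injective j) (hr : j.range = H)
    {b₁ : Set (IrrCharacter X₁)} {b₂ : Set (IrrCharacter X₂)} (D₁ : Subgroup X₁)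
    (hD₁ : IsDefectGroup p 𝔐 b₁ D₁) (D₂ : Subgroup X₂) (hD₂ : IsDefectGroup p 𝔐 b₂ D₂) :
    ∃ D : Subgroup H, IsDefectGroup p 𝔐 (prodBlk H j b₁ b₂) D ∧
      ∀ z ∈ D₁, ∀ d ∈ D₂, j (z, d) ∈ D.map H.subtype := by
  have hP : 𝔐.IsPrime := isPrime_of_isPModular hM
  obtain ⟨g₁, hg₁, P₁, hP₁⟩ := hD₁
  obtain ⟨g₂, hg₂, P₂, hP₂⟩ := hD₂
  set φ := onto j hj H hr with hφ
  have hdef : IsDefectClass 𝔐 (prodBlk H j b₁ b₂) (φ (g₁, g₂)) := by
    refine ⟨?_, ?_, ?_⟩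
    · rw [blockCoeff_prodBlk j hj H hr]
      exact memLocalRing_mul hg₁.1 hg₂.1
    · rw [blockCoeff_prodBlk j hj H hr]
      exact not_memLocalIdeal_mul hg₁.1 hg₂.1 hg₁.2.1 hg₂.2.1
    · rw [prodBlk_eq j hj H hr]
      rintro χ ⟨⟨χ₁, χ₂⟩, ⟨h₁, h₂⟩, rfl⟩
      rw [centralChar_outer]
      exact not_memLocalIdeal_mul (memLocalRing_centralChar χ₁ _) (memLocalRing_centralChar χ₂ _)
        (hg₁.2.2 χ₁ h₁) (hg₂.2.2 χ₂ h₂)
  set C := Subgroup.centralizer ({φ (g₁, g₂)} : Set H) with hC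
  set R : Subgroup H := (D₁.prod D₂).map φ.toMonoidHom with hR
  have hD₁p : IsPGroup p D₁ := by
    rw [hP₁]
    exact P₁.isPGroup'.map _
  have hD₁c : D₁ ≤ Subgroup.centralizer ({g₁} : Set X₁) := by
    rw [hP₁]
    exact Subgroup.map_subtype_le _
  have hD₂p : IsPGroup p D₂ := by
    rw [hP₂]
    exact P₂.isPGroup'.map _
  have hD₂c : D₂ ≤ Subgroup.centralizer ({g₂} : Set X₂) := by
    rw [hP₂]
    exact Subgroup.map_subtype_le _
  have hRp : IsPGroup p R := by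
    refine IsPGroup.map ?_ _
    rintro ⟨⟨z, d⟩, hz, hd⟩
    obtain ⟨a, ha⟩ := hD₁p ⟨z, hz⟩
    obtain ⟨b, hb⟩ := hD₂p ⟨d, hd⟩
    have ha' : z ^ p ^ a = 1 := congrArg Subtype.val ha
    have hb' : d ^ p ^ b = 1 := congrArg Subtype.val hb
    refine ⟨a + b, Subtype.ext (Prod.ext ?_ ?_)⟩
    · change z ^ p ^ (a + b) = 1
      rw [pow_add, pow_mul, ha', one_pow]
    · change d ^ p ^ (a + b) = 1
      rw [pow_add, mul_comm, pow_mul, hb', one_pow]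
  have hRC : R ≤ C := by
    rw [hC, ← map_centralizer]
    refine Subgroup.map_mono ?_
    rintro ⟨z, d⟩ ⟨hz, hd⟩
    rw [centralizer_prod]
    exact ⟨hD₁c hz, hD₂c hd⟩
  obtain ⟨P, hP'⟩ := IsPGroup.exists_le_sylow (p := p) (G := C) (P := R.subgroupOf C) hRp.comap_subtype
  refine ⟨(P : Subgroup C).map C.subtype, ⟨φ (g₁, g₂), hdef, P, rfl⟩, fun z hz d hd => ?_⟩
  have h1 : φ (z, d) ∈ R := ⟨(z, d), ⟨hz, hd⟩, rfl⟩
  refine ⟨φ (z, d), ⟨⟨φ (z, d), hRC h1⟩, hP' ?_, rfl⟩, coe_onto j hj H hr (z, d)⟩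
  rw [Subgroup.mem_subgroupOf]
  exact h1

end prod

section rank

/-- a normal subgroup of index 4 with elementary abelian quotient -/
theorem exists_four {P : Type*} [Group P] [Finite P] (hP : IsPGroup 2 P) (hc : ¬ IsCyclic P) :
    ∃ T : Subgroup P, T.Normal ∧ T.index = 4 ∧ (∀ a b : P, a * b * a⁻¹ * b⁻¹ ∈ T) ∧ ∀ a : P, a ^ 2 ∈ T := by
  obtain ⟨M₁, M₂, h₁, h₂, hne⟩ := H751.exists_two_index_two hP hc
  have hn₁ : M₁.Normal := Subgroup.normal_of_index_eq_two h₁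
  have hn₂ : M₂.Normal := Subgroup.normal_of_index_eq_two h₂
  have key : ∀ M : Subgroup P, M.index = 2 → (∀ a b : P, a * b * a⁻¹ * b⁻¹ ∈ M) ∧ ∀ a : P, a ^ 2 ∈ M := by
    intro M hM
    have hsq : ∀ a : P, a ^ 2 ∈ M := fun a => Subgroup.sq_mem_of_index_two hM a
    refine ⟨fun a b => ?_, hsq⟩
    have hmul : ∀ x y : P, x * y ∈ M ↔ (x ∈ M ↔ y ∈ M) := fun x y => Subgroup.mul_mem_iff_of_index_two hM
    rw [hmul, hmul, hmul, inv_mem_iff, inv_mem_iff]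
    tauto
  have hsup : M₁ ⊔ M₂ = ⊤ := by
    have h3 : M₁ < M₁ ⊔ M₂ := by
      refine lt_of_le_of_ne le_sup_left fun h => hne ?_
      have h4 : M₂ ≤ M₁ := by rw [h]; exact le_sup_right
      symm
      apply Subgroup.eq_of_le_of_card_ge h4
      have h5 := M₁.card_mul_index
      have h6 := M₂.card_mul_index
      rw [h₁] at h5
      rw [h₂] at h6
      omega
    have h4 : (M₁ ⊔ M₂).index < 2 := by
      rw [← h₁]
      exact Subgroup.index_strictAnti h3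
    have h5 : (M₁ ⊔ M₂).index ≠ 0 := Subgroup.FiniteIndex.index_ne_zero
    exact Subgroup.index_eq_one.1 (by omega)
  refine ⟨M₁ ⊓ M₂, inferInstance, ?_, fun a b => ⟨(key M₁ h₁).1 a b, (key M₂ h₂).1 a b⟩,
    fun a => ⟨(key M₁ h₁).2 a, (key M₂ h₂).2 a⟩⟩
  have h6 : (M₁ ⊓ M₂).relIndex M₂ * M₂.index = (M₁ ⊓ M₂).index := Subgroup.relIndex_mul_index inf_le_right
  have h7 : (M₁ ⊓ M₂).relIndex M₂ = M₁.relIndex M₂ := Subgroup.inf_relIndex_right M₁ M₂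
  have h8 : M₁.relIndex M₂ = M₁.relIndex (M₁ ⊔ M₂) := by
    rw [Subgroup.relIndex_sup_left]
  rw [← h6, h7, h8, hsup, Subgroup.relIndex_top_right, h₁, h₂]

theorem four_le_of_noncyclic {P₁ P₂ X : Type*} [Group P₁] [Finite P₁] [Group P₂] [Finite P₂] [Group X]
    (h₁ : IsPGroup 2 P₁) (h₂ : IsPGroup 2 P₂) (hc₁ : ¬ IsCyclic P₁) (hc₂ : ¬ IsCyclic P₂)
    (f : P₁ × P₂ →* X) (hf : Function.Injective f) {s : ℕ} (hs : SectionalPRankLE 2 s X) : 4 ≤ s := by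
  obtain ⟨T₁, hn₁, hi₁, hcm₁, hsq₁⟩ := exists_four h₁ hc₁
  obtain ⟨T₂, hn₂, hi₂, hcm₂, hsq₂⟩ := exists_four h₂ hc₂
  have h3 := H583.SecRank.sectional_of_injective hs f hf
  have h4 := H583.SecRank.index_le h3 (T₁.prod T₂) (fun a b => ⟨hcm₁ a.1 b.1, hcm₂ a.2 b.2⟩)
    (fun a => ⟨hsq₁ a.1, hsq₂ a.2⟩)
  rw [Subgroup.index_prod, hi₁, hi₂] at h4
  by_contra h5
  have h6 : 2 ^ s ≤ 2 ^ 3 := Nat.pow_le_pow_right (by norm_num) (by omega)
  omega

end rank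

end Cfsg.Agent.H501.GLn
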